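import Cfsg.Agent.Lib.TT.AffA
import Cfsg.Agent.Lib.TT.PSq2
import Cfsg.Agent.Lib.Perm.Zass7

/-!
Triply transitive affine groups with a normal subgroup whose two-point stabilizers have odd order.
-/

set_option autoImplicit false

namespace Cfsg.Lib.TT

open MulAction Subgroup Equiv Cfsg.Lib.Perm Cfsg.Lib.BG Cfsg.Lib.Inv
open scoped Cfsg.Lib.Transfer MatrixGroups

/-- The elements of `D` inverted by `t` modulo the commutator subgroup. -/
def invSub {G : Type*} [Group G] (D : Subgroup G) (t : G) (ht : t ∈ 𝐍(D)) : Subgroup G where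
  carrier := {d | d ∈ D ∧ t * d * t⁻¹ * d ∈ ⁅D, D⁆}
  one_mem' := ⟨one_mem _, by simp⟩
  mul_mem' {d e} hd he := ⟨mul_mem hd.1 he.1, by
    rw [show t * (d * e) * t⁻¹ * (d * e) = t * d * t⁻¹ * d * (d⁻¹ * (t * e * t⁻¹) * d⁻¹⁻¹ *
      (t * e * t⁻¹)⁻¹) * (t * e * t⁻¹ * e) by group]
    exact mul_mem (mul_mem hd.2 (comm_mem_comm (inv_mem hd.1) (conj_mem_of_norm ht he.1))) he.2⟩
  inv_mem' {d} hd := ⟨inv_mem hd.1, by
    rw [show t * d⁻¹ * t⁻¹ * d⁻¹ = (d * (t * d * t⁻¹ * d) * d⁻¹)⁻¹ by group]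
    exact inv_mem (conj_mem_of_norm (norm_der (le_norm D) hd.1) hd.2)⟩

variable {Ω : Type*} {Q : Ω → Subgroup (Perm Ω)} {a b c : Ω} {g z μ : Perm Ω} [Finite Ω]

namespace Aff

variable (h : Aff Q) {H : Subgroup (Perm Ω)} (hQ : ∀ x, Q x ≤ H) (hH : H ≤ nrm Q) (hb : b ≠ a)
  (hc : c ≠ a) (hc' : c ≠ b)
include h hQ hH hb hc hc'

theorem z_norm (hz : IsZ Q a b z) (hg : g ∈ H) : z * g * z⁻¹ ∈ H := by
  obtain ⟨n, hn, h1, h2⟩ := h.two (N := H ⊓ z⁻¹ ⋆ H) hb.symm hc hc'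
    (fun u hu => ⟨hQ a hu, Transfer.mem_conj.2 (by
      rw [inv_inv, h.z_inv hb hz hu]; exact inv_mem (hQ a hu))⟩)
    (fun u hu => ⟨hQ b hu, Transfer.mem_conj.2 (by
      rw [inv_inv, h.z_inv hb.symm (h.z_symm hb hz) hu]; exact inv_mem (hQ b hu))⟩)
    ((MulAction.injective g).ne hb.symm)
  have h3 := mul_mem (inv_mem (mem_inf.1 hn).1) hg
  rw [show z * g * z⁻¹ = z⁻¹⁻¹ * n * z⁻¹ * (z * (n⁻¹ * g) * z⁻¹) by group, ← h.z_comm hb hz (hH h3)
    (by rw [mul_smul, ← h1, inv_smul_smul]) (by rw [mul_smul, ← h2, inv_smul_smul]),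
    mul_inv_cancel_right]
  exact mul_mem (Transfer.mem_conj.1 hn.2) h3

theorem isZ_mu (ho : Odd (Nat.card ↥(H ⊓ stab2 _ a b))) (hz : IsZ Q a b z) (hm : Mu Q a b c μ) :
    IsZ Q c (z • c) (z * μ) := by
  obtain ⟨τ, h1, h2, h3⟩ := h.exists_tau hb hz hc hc'
  obtain ⟨e3, e4⟩ := h.mu_swap hb hm
  have h6 := h.z_comm' hb hz (hm.mem h.le) e3 e4
  have h7 := h.z_mu hb hz hm
  have h8 : z • c ≠ c := fun e => (h.z_fix hb hz e).elim hc hc'
  obtain ⟨k, hk, h4, h5⟩ := h.two hb.symm hc hc' (hQ a) (hQ b) h8.symm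
  have h9 := h.z_uniq h8 h1 (h4 ▸ h5 ▸ hz.conj (hH hk))
  have h10 := h.z_comm h8 h1 (mul_mem (h.z_mem hb hz) (hm.mem h.le)) h7
    (by rw [mul_smul, ← mul_smul μ, h6, h7])
  have h11 : z * μ * (z * μ) = 1 := by
    rw [mul_assoc, ← mul_assoc μ, h6, mul_assoc, h.mu_sq hb hm, mul_one, h.z_sq hb hz]
  rwa [← inv_eq_of_mul_self h11, ← eq_inv_of_mul_eq_one_left (eq_one_of_odd_of_mul_self
    (odd_orderOf_of_mem ho (x := τ * (z * μ)) ⟨?_, ?_, ?_⟩) ?_)]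
  · rw [h9, show k * z * k⁻¹ * (z * μ) = k * (z * k⁻¹ * z⁻¹) * (z * z) * μ by group, h.z_sq hb hz,
      mul_one]
    exact mul_mem (mul_mem hk (h.z_norm hQ hH hb hc hc' hz (inv_mem hk))) (hm.mem hQ)
  · exact (mul_smul ..).trans (by rw [mul_smul, e3, hz.snd, h3])
  · exact (mul_smul ..).trans (by rw [mul_smul, e4, hz.1, h2])
  · rw [mul_assoc, ← mul_assoc (z * μ), h10, mul_assoc, h11, mul_one, h.z_sq h8 h1]

theorem psl (ho : Odd (Nat.card ↥(H ⊓ stab2 _ a b))) (hn : 6 ∣ Nat.card Ω)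
    (hd : ∀ g ∈ ⁅H ⊓ stab2 _ a b, H ⊓ stab2 _ a b⁆, ∀ x, x ≠ a → x ≠ b → g • x = x → g = 1) :
    ∃ (F : Type) (_ : Field F) (_ : Fintype F), Nat.card F + 1 = Nat.card Ω ∧
      Nonempty (↥(⨆ x, Q x) ≃* PSL(2, F)) := by
  obtain ⟨z, hz⟩ := h.exists_z hb
  choose! m hm using fun c => h.exists_mu (c := c) hb
  set D := H ⊓ stab2 _ a b
  have hn' : ∀ x, x ≠ a → x ≠ b → m x ∈ 𝐍(D) := fun x h1 h2 => (norm_inf (inf_le_left.trans (le_norm H))
    (inf_le_right.trans pairStab_le_norm)) ⟨(hm x h1 h2).mem hQ, swap_mem_pairStab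
      (h.mu_swap hb (hm x h1 h2)).1 (h.mu_swap hb (hm x h1 h2)).2⟩
  set μ := m c
  have h0 := h.mu_sq hb (hm c hc hc')
  obtain ⟨h1, h2⟩ := h.mu_swap hb (hm c hc hc')
  set A := invSub D μ (hn' c hc hc')
  have h3 : ∀ x, x ≠ a → x ≠ b → μ * m x ∈ A := fun x e1 e2 =>
    ⟨⟨mul_mem ((hm c hc hc').mem hQ) ((hm x e1 e2).mem hQ), swap_mul_swap h1 h2
      (h.mu_swap hb (hm x e1 e2)).1 (h.mu_swap hb (hm x e1 e2)).2⟩, by
      rw [show μ * (μ * m x) * μ⁻¹ * (μ * m x) = μ * μ * (m x * m x) by group, h0,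
        h.mu_sq hb (hm x e1 e2), mul_one]
      exact one_mem _⟩
  have h4 : ∀ d ∈ A, μ * d * μ⁻¹ ∈ A := fun d hd => ⟨conj_mem_of_norm (hn' c hc hc') hd.1, by
    rw [show μ * (μ * d * μ⁻¹) * μ⁻¹ * (μ * d * μ⁻¹) = μ * μ * d * (μ * μ)⁻¹ * (μ * d * μ⁻¹ * d) * d⁻¹
      by group, h0, one_mul, inv_one, mul_one]
    exact conj_mem_of_norm (norm_der (le_norm D) hd.1) hd.2⟩
  have h5 : A ≤ 𝐍(Q a) := fun d hd => norm_of_conj_eq ((hH hd.1.1 a).trans (by rw [hd.1.2.1]))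
  have h6 : ∀ g ∈ closure (↑(A ⊔ Q a) ∪ {μ}), g ∈ A ⊔ Q a ∨
      ∃ k ∈ A ⊔ Q a, ∃ u ∈ Q a, g = k * μ * u := by
    have key : ∀ x ∈ (↑(A ⊔ Q a) ∪ {μ} : Set (Perm Ω)), ∀ g, (g ∈ A ⊔ Q a ∨
        ∃ k ∈ A ⊔ Q a, ∃ u ∈ Q a, g = k * μ * u) → x * g ∈ A ⊔ Q a ∨
        ∃ k ∈ A ⊔ Q a, ∃ u ∈ Q a, x * g = k * μ * u := by
      rintro x (hx | rfl) g (hg | ⟨k, hk, u, hu, rfl⟩)
      · exact Or.inl (mul_mem hx hg)
      · exact Or.inr ⟨_, mul_mem hx hk, u, hu, by group⟩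
      · obtain ⟨d, hd, u, hu, rfl⟩ := (mem_sup_right_norm h5).1 hg
        exact Or.inr ⟨_, mem_sup_left (h4 d hd), u, hu, by group⟩
      obtain ⟨d, hd, w, hw, rfl⟩ := (mem_sup_right_norm h5).1 hk
      by_cases e : w • b = b
      · refine Or.inl ?_
        rw [h.reg a b hb w hw e, show μ * (d * 1 * μ * u) = μ * d * μ⁻¹ * (μ * μ) * u by group, h0,
          mul_one]
        exact mul_mem_sup (h4 d hd) hu
      have e1 := h3 _ (h.ne hw hb) e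
      have e2 := h.mu_sq hb (hm _ (h.ne hw hb) e)
      obtain ⟨w', hw', v, hv, e3, e4, e5⟩ := hm _ (h.ne hw hb) e
      obtain rfl := h.eq_of hw' hw hb e3
      have e6 := (h.braid hb hw' hv (e3.trans e4.symm)).2.2
      refine Or.inr ⟨_, mul_mem_sup (mul_mem (h4 d hd) e1) (inv_mem hw'), _,
        mul_mem (conj_mem_of_norm (h5 e1) (inv_mem hw')) hu, ?_⟩
      generalize m (w' • b) = ν at e2 e5
      have e7 : ν * w' * ν = w'⁻¹ * ν * w'⁻¹ :=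
        calc _ = v⁻¹ * (w' * v⁻¹ * w') * ν := by nth_rw 1 [e5]; group
          _ = w'⁻¹ * (w' * v⁻¹ * w') * w'⁻¹ := by nth_rw 1 [← e6, ← e5, mul_assoc, e2]; group
          _ = _ := by rw [← e6, ← e5]
      calc _ = μ * d * (ν * ν) * w' * μ⁻¹ * u := by
            rw [e2, inv_eq_of_mul_self h0]; simp only [mul_one, mul_assoc, μ]
        _ = μ * d * ν * (ν * w' * ν) * ν⁻¹ * μ⁻¹ * u := by group
        _ = μ * d * ν * (w'⁻¹ * (μ * μ) * ν * w'⁻¹) * ν⁻¹ * μ⁻¹ * u := by rw [e7, h0, mul_one]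
        _ = _ := by group
    intro g hg
    induction hg using closure_induction_left with
    | one => exact Or.inl (one_mem _)
    | mul_left x hx y _ ih => exact key x hx y ih
    | inv_mul_cancel x hx y _ ih =>
      exact key _ (hx.imp inv_mem fun e => by rw [e, inv_eq_of_mul_self h0]; rfl) y ih
  set L := ⨆ x, Q x
  have hL : ∀ x, Q x ≤ L := le_iSup Q
  have h7 : L ≤ closure (↑(A ⊔ Q a) ∪ {μ}) := by
    have e1 : Q a ≤ closure (↑(A ⊔ Q a) ∪ {μ}) := fun u hu =>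
      subset_closure (Or.inl (mem_sup_right hu))
    have key : ∀ n ∈ closure (↑(A ⊔ Q a) ∪ {μ}), Q (n • a) ≤ closure (↑(A ⊔ Q a) ∪ {μ}) :=
      fun n e2 => by
        have e3 : A ⊔ Q a ≤ H := sup_le (fun d hd => hd.1.1) (hQ a)
        rw [← hH ((closure_le H).2 (Set.union_subset e3
          (Set.singleton_subset_iff.2 ((hm c hc hc').mem hQ))) e2) a]
        exact conj_le_of_mem e1 e2
    refine iSup_le fun x => ?_
    have : Nontrivial Ω := ⟨a, b, hb.symm⟩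
    obtain ⟨y, hy⟩ := exists_ne x
    have e3 := key μ (subset_closure (Or.inr rfl))
    rw [h1] at e3
    obtain ⟨n, e2, rfl, -⟩ := h.two hb.symm hc hc' e1 e3 hy.symm
    exact key n e2
  have h8 : L ⊓ stab2 _ a b ≤ A := fun g hg => by
    obtain e | ⟨k, hk, u, hu, rfl⟩ := h6 g (h7 hg.1)
    · obtain ⟨d, hd, u, hu, rfl⟩ := (mem_sup_right_norm h5).1 e
      rwa [h.reg a b hb u hu (MulAction.injective d (((mul_smul ..).symm.trans hg.2.2).trans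
        hd.1.2.2.symm)), mul_one]
    · have := stab2_fst hg.2
      rw [mul_smul, mul_smul, h.fix a u hu, h1] at this
      exact absurd (MulAction.injective k (this.trans (Eq.symm (sup_le (b := Q a)
        (c := stabilizer _ a) (fun d hd => hd.1.2.1) (h.fix a) hk)))) hb
  have hT : DT L Ω := ⟨fun x y x' y' e1 e2 =>
    let ⟨k, hk, e3, e4⟩ := h.two hb.symm hc hc' (hL a) (hL b) e1
    let ⟨l, hl, e5, e6⟩ := h.two hb.symm hc hc' (hL a) (hL b) e2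
    ⟨⟨l * k⁻¹, mul_mem hl (inv_mem hk)⟩, by simp [Subgroup.smul_def, mul_smul, ← e3, ← e5],
      by simp [Subgroup.smul_def, mul_smul, ← e4, ← e6]⟩, fun g e => Subtype.ext (Equiv.ext e)⟩
  have hZ := hT.zass (fun hr => ?_) hb.symm fun ⟨e, he⟩ e1 x e2 e3 e4 => Subtype.ext ?_
  · have hZ' := ZT.of_zassenhaus hZ
    have h9 : Nat.card (stab2 L a b) = Nat.card ↥(L ⊓ stab2 _ a b) :=
      (Core.card_subgroupOf (stab2 _ a b) L).trans (by rw [inf_comm])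
    have h10 := hZ'.card_zker a
    have h11 : Nat.card (zker L a) - 1 ≤ 2 * Nat.card (stab2 L a b) := by
      rw [h9, ← ncard_coe (L ⊓ _), show Nat.card (zker L a) - 1 = ({a, b}ᶜ : Set Ω).ncard by
        rw [Set.ncard_compl, Set.ncard_pair hb.symm, ← h10]; rfl]
      simp only [Set.compl_def, Set.mem_insert_iff, Set.mem_singleton_iff, not_or]
      refine ncard_le_mul (fun x => μ * m x) (fun x hx => And.intro (mul_mem
        ((hm c hc hc').mem hL) ((hm x hx.1 hx.2).mem hL)) (h3 x hx.1 hx.2).1.2) fun s _ => ?_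
      obtain e | ⟨x, hx, rfl⟩ := Set.eq_empty_or_nonempty
        {x | x ∈ {x | ¬ x = a ∧ ¬ x = b} ∧ μ * m x = s}
      · rw [e]; simp
      refine (Set.ncard_le_ncard (t := {x, z • x}) fun y hy => ?_).trans
        ((Set.ncard_insert_le ..).trans (by simp))
      exact h.z_fix (fun e => (h.z_fix hb hz e).elim hx.1 hx.2) (h.isZ_mu hQ hH hb hx.1 hx.2 ho hz
        (hm x hx.1 hx.2)) (mul_left_cancel hy.2 ▸ h.z_mu hb hz (hm y hy.1.1 hy.1.2))
    have := simple_of_card hZ hb.symm ((hZ'.card_of_large hb.symm h11).resolve_left fun e => by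
      obtain ⟨k, hk⟩ := h9 ▸ odd_of_le ho (inf_le_inf_right _ (iSup_le hQ))
      omega)
    obtain ⟨F, _, _, hF⟩ := hZ'.exists_field hb.symm h11
    exact ⟨F, _, ‹_›, hF ▸ h10, hZ'.PSL_of_simple hb.symm h11 F hF⟩
  · obtain ⟨q, k, hq, e⟩ := hT.prime_pow hr a
    rw [e] at hn
    exact absurd (((Nat.prime_dvd_prime_iff_eq Nat.prime_two hq).1 (Nat.prime_two.dvd_of_dvd_pow
      (Dvd.dvd.trans (by norm_num) hn))).trans ((Nat.prime_dvd_prime_iff_eq Nat.prime_three hq).1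
      (Nat.prime_three.dvd_of_dvd_pow (Dvd.dvd.trans (by norm_num) hn))).symm) (by norm_num)
  · have e5 := h8 ⟨he, e1⟩
    have e6 := (hm x e2 e3).conj (hH e5.1.1)
    rw [stab2_fst e5.1.2, stab2_snd e5.1.2, show e • x = x from e4] at e6
    replace e6 := h.mu_uniq hb e6 (hm x e2 e3)
    refine eq_one_of_odd_of_mul_self (odd_orderOf_of_mem ho e5.1) (hd _ ?_ x e2 e3 (by
      rw [mul_smul, show e • x = x from e4, show e • x = x from e4]))
    have := mul_mem (inv_mem (comm_mem_comm (h3 x e2 e3).1 e5.1)) e5.2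
    rwa [show μ * m x * e * (μ * m x)⁻¹ * e⁻¹ = μ * m x * (e * m x * e⁻¹)⁻¹ * e * μ⁻¹ * e⁻¹ by group,
      e6, show (μ * m x * (m x)⁻¹ * e * μ⁻¹ * e⁻¹)⁻¹ * (μ * e * μ⁻¹ * e) = e * e by group] at this

end Aff

end Cfsg.Lib.TT
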