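import Cfsg.Agent.Lib.TT.Basic
import Cfsg.Agent.Lib.BS.Cor

/-!
Doubly transitive groups of odd degree whose two-point stabilizers have odd order.
-/

set_option autoImplicit false

namespace Cfsg.Lib.TT

open MulAction Subgroup Cfsg.Lib.Perm Cfsg.Lib.Inv Cfsg.Lib.BS

variable {G Ω : Type*} [Group G] [MulAction G Ω]

theorem stab2_eq_inf (a b : Ω) : stab2 G a b = stabilizer G a ⊓ stabilizer G b := by
  ext; rfl

namespace DT

variable (h : DT G Ω) {a b : Ω}
include h

theorem normalCore_stab (a : Ω) : (stabilizer G a).normalCore = ⊥ :=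
  eq_bot_iff.2 fun g hg => h.faith g fun x => by
    obtain ⟨k, rfl⟩ := h.trans a x
    have : (k⁻¹ * g * k⁻¹⁻¹) • a = a := hg k⁻¹
    rwa [inv_inv, mul_smul, mul_smul, inv_smul_eq_iff] at this

theorem stab_ne_top (hab : a ≠ b) : stabilizer G a ≠ ⊤ := fun e =>
  let ⟨g, hg⟩ := h.trans a b
  hab ((show g ∈ stabilizer G a from e ▸ mem_top g).symm.trans hg)

variable [Finite G] [Finite Ω]

theorem se_stab (hab : a ≠ b) (he : Even (Nat.card (stabilizer G a)))
    (ho : Odd (Nat.card (stab2 G a b))) : IsStronglyEmbedded (stabilizer G a) :=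
  ⟨h.stab_ne_top hab, he, fun g hg => by
    rw [← stabilizer_smul_eq_stabilizer_map_conj, ← stab2_eq_inf,
      h.card_stab2 (Ne.symm hg) hab]
    exact ho⟩

/-- The split rank one structure. -/
theorem exists_RS (hr : ¬ Reg G Ω) (hab : a ≠ b) (he : Even (Nat.card (stabilizer G a)))
    (ho : Odd (Nat.card (stab2 G a b))) : ∃ (Q Q₀ K : Subgroup G) (t s r : G),
      RS (stabilizer G a) Q (stab2 G a (t • a)) Q₀ K t s r := by
  have hse := h.se_stab hab he ho
  have h2 : Rk2 G := not_not.1 fun h2 => h.stab_ne_top hab (by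
    rw [← se_sup_of_not_rk2 hse h2, h.oddCore_eq_bot hr, bot_sup_eq])
  obtain ⟨Q, D, t, hR⟩ := exists_ro hse h2 (h.normalCore_stab a)
  obtain ⟨Q₀, K, s, r, hS⟩ := hR.exists_RS h2
  refine ⟨Q, Q₀, K, t, s, r, (show D = stab2 G a (t • a) from ?_) ▸ hS⟩
  ext d
  rw [hR.memD, mem_stab2, mem_stabilizer_iff, mem_stabilizer_iff, mul_smul, mul_smul,
    smul_eq_iff_eq_inv_smul t, hR.t_inv]

end DT

end Cfsg.Lib.TT
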